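import Cfsg.Agent.H866.TD.Cls

/-!
# S3509, `³D₄(q)`, type II: a subgroup of order `q³` generated by the three short root groups (for helper244 / helper922)
-/

set_option autoImplicit false
set_option linter.unusedSectionVars false

namespace Cfsg.Agent.H327.RG.GFour

open CoxeterSystem Cfsg.Agent.ChevalleyStructure.CoxeterGeom Cfsg.Agent.Tits.Roots Cfsg.Agent.Tits.Core
  Cfsg.Agent.Tits.Exchange Cfsg.Agent.Nodes.Reps Cfsg.Agent.Nodes.BNOf Cfsg.Agent.Nodes.StabComb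
  Cfsg.Agent.Nodes.Bruhat Cfsg.Agent.Nodes.OppDec Cfsg.Agent.Nodes.LeviDec Cfsg.Agent.Nodes.RGDTwGen
  Cfsg.Agent.Nodes.RGDChev Cfsg.Agent.Nodes.RGDFold Cfsg.Agent.Nodes.RGDFoldSL
open Cfsg.Agent.KFacts.RgdOpp Cfsg.Agent.KFacts.RgdAut Cfsg.Agent.KFacts.RgdDiag Cfsg.Agent.KFacts.RgdRigid
  Cfsg.Agent.KFacts.RgdField Cfsg.Agent.KFacts.RgdTau Cfsg.Agent.KFacts.RgdNodes
open Cfsg.Lie Cfsg.Agent.ChevalleyStructure Cfsg.Agent.ChevalleyStructure.Elts
open Cfsg.Agent.KFacts.TwDFour.Out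
open Cfsg.Agent.Nodes.RGDTwD4 Cfsg.Agent.Nodes.RGDTwNode.D4
open Cfsg.Agent.CpAut.RgdFix Cfsg.Agent.CpAut.RgdConj Cfsg.Agent.CpAut.RgdTwStd Cfsg.Agent.CpAut.RgdTwD4
open Cfsg.Agent.H866.D4Wf.Frame

variable {K : Type} [Field K] [Fintype K] {q : ℕ} (hK : Fintype.card K = q ^ 3)
  {φ : K →+* K} (hφ : ∀ x, φ x = x ^ q)

include hK hφ in
/-- the product map of the three short positive root groups is injective -/
theorem inj_three {a b c a' b' c' : ↥(twistedD4 K q)} (ha : a ∈ X φ q ![0, 1]) (ha' : a' ∈ X φ q ![0, 1])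
    (hb : b ∈ X φ q ![1, 1]) (hb' : b' ∈ X φ q ![1, 1]) (hc : c ∈ X φ q ![1, 2]) (hc' : c' ∈ X φ q ![1, 2])
    (h : a * b * c = a' * b' * c') : a = a' ∧ b = b' ∧ c = c' := by
  obtain ⟨r, hr⟩ := CharP.exists K
  have : Fact r.Prime := ⟨CharP.char_is_prime K r⟩
  have : Finite CoxeterMatrix.G₂.Group := finiteW cs
  have R := rgd' hK hφ r
  have hle : ∀ z ∈ rts, z ≠ ![0, 1] → (∀ i, 0 ≤ z i) → X φ q z ≤ RGD.Sup (X φ q) (RGD.PosNe cs isCartan 1) := by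
    intro z hz hne hpos
    exact RGD.le_Sup (S := RGD.PosNe cs isCartan 1) ⟨isRoot_of_mem hz, hpos, by rw [sr1_eq]; exact hne⟩
  have h11 := hle ![1, 1] (by simp [rts]) (by decide) (by decide)
  have h12 := hle ![1, 2] (by simp [rts]) (by decide) (by decide)
  have e1 : a'⁻¹ * a = b' * c' * c⁻¹ * b⁻¹ := by
    calc a'⁻¹ * a = a'⁻¹ * (a * b * c) * c⁻¹ * b⁻¹ := by group
      _ = _ := by rw [h]; group
  have e2 : a'⁻¹ * a = 1 := by
    refine eq_one_of_mem_PosNe R (i := 1) ?_ ?_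
    · rw [sr1_eq]
      exact mul_mem (inv_mem ha') ha
    · rw [e1]
      exact mul_mem (mul_mem (mul_mem (h11 hb') (h12 hc')) (inv_mem (h12 hc))) (inv_mem (h11 hb))
  have e3 : a = a' := (inv_mul_eq_one.1 e2).symm
  subst e3
  have e4 : b * c = b' * c' := by
    have h1 : a * (b * c) = a * (b' * c') := by rw [← mul_assoc, ← mul_assoc]; exact h
    exact mul_left_cancel h1
  have e5 : b'⁻¹ * b = c' * c⁻¹ := by
    calc b'⁻¹ * b = b'⁻¹ * (b * c) * c⁻¹ := by group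
      _ = _ := by rw [e4]; group
  have e6 : b'⁻¹ * b = 1 := by
    refine X_inf hK hφ (x := ![1, 1]) (y := ![1, 2]) (by simp [rts]) (by simp [rts]) (by decide) (mul_mem (inv_mem hb') hb) ?_
    rw [e5]
    exact mul_mem hc' (inv_mem hc)
  have e7 : b = b' := (inv_mul_eq_one.1 e6).symm
  subst e7
  exact ⟨rfl, rfl, mul_left_cancel e4⟩

include hK hφ in
/-- **A subgroup of order `q³`.** -/
theorem card_three (r : ℕ) [Fact r.Prime] [CharP K r] (hq : IsPrimePow q) {P01 P11 P12 S : Subgroup ↥(twistedD4 K q)}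
    (h01 : P01 ≤ X φ q ![0, 1]) (h11 : P11 ≤ X φ q ![1, 1]) (h12 : P12 ≤ X φ q ![1, 2]) (c01 : Nat.card P01 = q)
    (c11 : Nat.card P11 = q) (c12 : Nat.card P12 = q) (hS : IsPGroup r ↥S) (s01 : P01 ≤ S) (s11 : P11 ≤ S)
    (s12 : P12 ≤ S) : ∃ R ≤ S, Nat.card R = q ^ 3 := by
  have hfin : Finite ↥(twistedD4 K q) := Finite.of_injective _ (Subgroup.subtype_injective _)
  have hr : r.Prime := Fact.out
  obtain ⟨n, hn0, hn⟩ := H27.Exc.exists_pow (r := r) three_pos hq hK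
  let F : ↥P01 × ↥P11 × ↥P12 → ↥S := fun p =>
    ⟨p.1 * p.2.1 * p.2.2, mul_mem (mul_mem (s01 p.1.2) (s11 p.2.1.2)) (s12 p.2.2.2)⟩
  have hF : Function.Injective F := by
    rintro ⟨a, b, c⟩ ⟨a', b', c'⟩ h
    obtain ⟨e1, e2, e3⟩ := inj_three hK hφ (h01 a.2) (h01 a'.2) (h11 b.2) (h11 b'.2) (h12 c.2) (h12 c'.2)
      (congrArg Subtype.val h)
    exact Prod.ext (Subtype.ext e1) (Prod.ext (Subtype.ext e2) (Subtype.ext e3))
  have h1 : q ^ 3 ≤ Nat.card ↥S := by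
    have h2 := Nat.card_le_card_of_injective F hF
    rw [Nat.card_prod, Nat.card_prod, c01, c11, c12] at h2
    calc q ^ 3 = q * (q * q) := by ring
      _ ≤ _ := h2
  obtain ⟨m, hm⟩ := IsPGroup.iff_card.1 hS
  have h3 : r ^ (n * 3) ∣ Nat.card ↥S := by
    rw [hm]
    refine pow_dvd_pow r ?_
    have h4 : r ^ (n * 3) ≤ r ^ m := by rw [pow_mul, ← hn, ← hm]; exact h1
    exact (Nat.pow_le_pow_iff_right hr.one_lt).1 h4
  obtain ⟨R, hR⟩ := Sylow.exists_subgroup_card_pow_prime r h3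
  refine ⟨R.map S.subtype, ?_, ?_⟩
  · rintro _ ⟨y, -, rfl⟩
    exact y.2
  · rw [Nat.card_congr (R.equivMapOfInjective S.subtype S.subtype_injective).toEquiv.symm, hR, pow_mul, ← hn]

end Cfsg.Agent.H327.RG.GFour
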