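import Cfsg.Agent.H327.RG.KillY
import Cfsg.Agent.H28.GenF.Abs

/-!
# S3509, automorphisms of field type (field, graph-field): abstract form

`K₀` the group, `ι : K₀ →* Y`, `σ` the Steinberg automorphism of `Y` belonging to `K₀`.

* `Fr ι σ` : the frame (centralizer of `K₀` trivial, `K₀` normal in `Y^σ`);
* `Fl ι σ p Ψ α` : a power `α ^ i`, `i` prime to `p`, is induced by `conj y * Ψ`;
* `Lv ι σ p Ψ L` : `Ψ ^ p = σ`, Lang's theorem for `Ψ`, `L ≤ K₀` the group of `Ψ`, `⁅L, L⁆` simple with `RC`, the end;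
* `field_abs` : a cover with one member of type `Fl ι σ p Ψ`, all other members inner-diagonal or of types which
  cannot centralise `L`, is impossible.
-/

set_option autoImplicit false
set_option linter.unusedSectionVars false

namespace Cfsg.Agent.H327.RG

open MulAction Subgroup Cfsg.Agent.H106.RC
open Cfsg.Agent.H28.GenF (InD)
open scoped commutatorElement

section frame

variable {Y K₀ : Type*} [Group Y] [Group K₀]

/-- the frame -/
structure Fr (ι : K₀ →* Y) (σ : MulAut Y) : Prop where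
  inj : Function.Injective ι
  cent : ∀ z, (∀ a, z * ι a = ι a * z) → z = 1
  fixι : ∀ a, σ (ι a) = ι a
  norm : ∀ y, σ y = y → ∀ a, ∃ b, ι b = y * ι a * y⁻¹

/-- field type, `p` the order -/
def Fl (ι : K₀ →* Y) (p : ℕ) (Ψ : MulAut Y) (α : MulAut K₀) : Prop :=
  ∃ (i : ℕ) (y : Y), i.Coprime p ∧ ∀ a, ι ((α ^ i) a) = (MulAut.conj y * Ψ) (ι a)

/-- the level of a field automorphism -/
structure Lv (ι : K₀ →* Y) (σ : MulAut Y) (p : ℕ) (Ψ : MulAut Y) (L : Subgroup K₀) : Prop where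
  pow : Ψ ^ p = σ
  lang : ∀ h : Y, ∃ g, h = g⁻¹ * Ψ g
  fixL : ∀ a ∈ L, Ψ (ι a) = ι a
  charL : ∀ α : MulAut K₀, (∀ a, Ψ (ι a) = ι a → Ψ (ι (α a)) = ι (α a)) → ∀ a ∈ L, α a ∈ L
  centL : ∀ y, (∀ a ∈ L, y * ι a = ι a * y) → y = 1
  simple : IsSimpleGroup ↥⁅L, L⁆
  ncomm : ¬ IsMulCommutative ↥⁅L, L⁆
  rc : RC ↥⁅L, L⁆
  fin : ∀ β : MulAut K₀, (∀ a, ι (β a) = Ψ (ι a)) → ∃ u ∈ ⁅L, L⁆, u ≠ 1 ∧ ∃ a b : K₀, a * u = u * a ∧ b * u = u * b ∧
    ⁅β a * a⁻¹, b⁆ = u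

variable {p : ℕ} {ι : K₀ →* Y} {σ Ψ : MulAut Y}

/-- an automorphism of field type is conjugate to the standard one -/
theorem exists_std (h : Fr ι σ) (hpow : Ψ ^ p = σ) (lang : ∀ h : Y, ∃ g, h = g⁻¹ * Ψ g) {x : MulAut K₀}
    (hxp : x ^ p = 1) {y : Y} (hx : ∀ a, ι (x a) = (MulAut.conj y * Ψ) (ι a)) :
    ∃ γ : MulAut K₀, γ ∈ InD ι ∧ ∀ a, ι ((γ * x * γ⁻¹) a) = Ψ (ι a) := by
  obtain ⟨g, hg⟩ := lang y
  have hφ : ∀ a, Ψ (g * ι a * g⁻¹) = g * ι (x a) * g⁻¹ := by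
    intro a
    rw [hx, MulAut.mul_apply, MulAut.conj_apply, hg, map_mul, map_mul, map_inv]
    group
  have hφn : ∀ n : ℕ, ∀ a, (Ψ ^ n) (g * ι a * g⁻¹) = g * ι ((x ^ n) a) * g⁻¹ := by
    intro n
    induction n with
    | zero => intro a; rfl
    | succ n ih => intro a; rw [pow_succ', MulAut.mul_apply, ih, hφ, pow_succ', MulAut.mul_apply]
  have hσg : σ g = g := by
    have h2 : g⁻¹ * σ g = 1 := by
      apply h.cent
      intro a
      have h3 := hφn p a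
      rw [hpow, hxp, MulAut.one_apply, map_mul, map_mul, map_inv, h.fixι] at h3
      calc g⁻¹ * σ g * ι a = g⁻¹ * (σ g * ι a * (σ g)⁻¹) * σ g := by group
        _ = g⁻¹ * (g * ι a * g⁻¹) * σ g := by rw [h3]
        _ = ι a * (g⁻¹ * σ g) := by group
    exact (inv_mul_eq_one.1 h2).symm
  have hσg' : σ g⁻¹ = g⁻¹ := by rw [map_inv, hσg]
  choose b hb using h.norm g hσg
  choose b' hb' using h.norm g⁻¹ hσg'
  let γ : MulAut K₀ :=
    { toFun := b
      invFun := b'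
      left_inv := fun a => h.inj (by rw [hb', hb]; group)
      right_inv := fun a => h.inj (by rw [hb, hb']; group)
      map_mul' := fun a a' => h.inj (by rw [hb, map_mul, map_mul, hb, hb]; group) }
  have hγ : ∀ a, ι (γ a) = g * ι a * g⁻¹ := hb
  refine ⟨γ, ⟨g, hγ⟩, fun a => ?_⟩
  have h2 := hφ (γ⁻¹ a)
  rw [← hγ (γ⁻¹ a), MulAut.apply_inv_self] at h2
  rw [MulAut.mul_apply, MulAut.mul_apply, hγ, ← h2]

theorem Fl.conj {α γ : MulAut K₀} (h : Fl ι p Ψ α) (hγ : γ ∈ InD ι) : Fl ι p Ψ (γ * α * γ⁻¹) := by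
  obtain ⟨i, y, h1, h4⟩ := h
  obtain ⟨g, hg⟩ := hγ
  obtain ⟨g', hg'⟩ : γ⁻¹ ∈ InD ι := inv_mem ⟨g, hg⟩
  refine ⟨i, g * y * Ψ g', h1, fun a => ?_⟩
  have e : (γ * α * γ⁻¹) ^ i = γ * α ^ i * γ⁻¹ := conj_pow
  rw [e, MulAut.mul_apply, MulAut.mul_apply, hg, h4, hg', MulAut.mul_apply, MulAut.mul_apply, MulAut.conj_apply,
    MulAut.conj_apply, map_mul, map_mul, map_inv]
  group

/-! ### the derived group of `L` -/

variable {L : Subgroup K₀}

theorem Lv.conj_der {a b : K₀} (ha : a ∈ L) (hb : b ∈ ⁅L, L⁆) : a * b * a⁻¹ ∈ ⁅L, L⁆ := by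
  have h1 : ⁅a, b⁆ ∈ ⁅L, L⁆ := commutator_mem_commutator ha (commutator_le_self _ hb)
  have h2 := mul_mem h1 hb
  rwa [commutatorElement_def, inv_mul_cancel_right] at h2

/-- the centralizer of the derived group in `L` -/
theorem Lv.cent_der (h : Lv ι σ p Ψ L) (hι : Function.Injective ι) {a : K₀} (ha : a ∈ L)
    (hc : ∀ b ∈ ⁅L, L⁆, a * b = b * a) : a = 1 := by
  have hcen : ∀ z ∈ ⁅L, L⁆, (∀ b ∈ ⁅L, L⁆, z * b = b * z) → z = 1 := by
    intro z hz hzc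
    have h1 : (⟨z, hz⟩ : ↥⁅L, L⁆) ∈ center ↥⁅L, L⁆ := by
      rw [mem_center_iff]
      intro b
      exact Subtype.ext (hzc b b.2).symm
    rcases h.simple.eq_bot_or_eq_top_of_normal (center ↥⁅L, L⁆) inferInstance with h' | h'
    · rw [h', mem_bot] at h1
      exact congrArg Subtype.val h1
    · exact (h.ncomm ⟨⟨fun b c => (mem_center_iff.1 (h' ▸ mem_top c) b)⟩⟩).elim
  have h1 : ∀ b ∈ L, a * b = b * a := by
    intro b hb
    have h2 : ⁅a, b⁆ = 1 := by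
      refine hcen _ (commutator_mem_commutator ha hb) fun c hc' => ?_
      have h3 := hc _ (Lv.conj_der (inv_mem hb) hc')
      rw [inv_inv] at h3
      have h4 := hc c hc'
      rw [commutatorElement_def]
      calc a * b * a⁻¹ * b⁻¹ * c = a * b * a⁻¹ * (b⁻¹ * c * b) * b⁻¹ := by group
        _ = a * b * (a⁻¹ * (a * (b⁻¹ * c * b) * a⁻¹)) * b⁻¹ := by
            rw [h3]; group
        _ = a * c * b * a⁻¹ * b⁻¹ := by group
        _ = c * (a * b * a⁻¹ * b⁻¹) := by rw [h4]; group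
    rwa [commutatorElement_eq_one_iff_mul_comm] at h2
  have h2 : ι a = 1 := h.centL _ fun b hb => by rw [← map_mul, h1 b hb, map_mul]
  exact hι (by rw [h2, map_one])

/-- an automorphism preserving `L` and trivial on the derived group is trivial on `L` -/
theorem Lv.triv (h : Lv ι σ p Ψ L) (hι : Function.Injective ι) {α : MulAut K₀} (hα : ∀ a ∈ L, α a ∈ L)
    (hc : ∀ a ∈ ⁅L, L⁆, α a = a) {a : K₀} (ha : a ∈ L) : α a = a := by
  have h1 : a⁻¹ * α a = 1 := by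
    refine h.cent_der hι (mul_mem (inv_mem ha) (hα a ha)) fun b hb => ?_
    have h3 := hc _ (Lv.conj_der ha hb)
    rw [map_mul, map_mul, map_inv, hc b hb] at h3
    calc a⁻¹ * α a * b = a⁻¹ * (α a * b * (α a)⁻¹) * α a := by group
      _ = a⁻¹ * (a * b * a⁻¹) * α a := by rw [h3]
      _ = b * (a⁻¹ * α a) := by group
  exact (inv_mul_eq_one.1 h1).symm

/-- automorphisms commuting with the standard one preserve `L` -/
theorem Lv.pres (h : Lv ι σ p Ψ L) (hι : Function.Injective ι) {β α : MulAut K₀} (hβ : ∀ a, ι (β a) = Ψ (ι a))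
    (hαβ : α * β = β * α) : ∀ a ∈ L, α a ∈ L := by
  refine h.charL α fun a ha => ?_
  have h1 : β a = a := hι (by rw [hβ, ha])
  rw [← hβ, ← MulAut.mul_apply, ← hαβ, MulAut.mul_apply, h1]

/-- **A cover with a member of field type.** -/
theorem field_abs (hF : Fr ι σ) (hLv : Lv ι σ p Ψ L)
    {G Ω κ : Type*} [Group G] [MulAction G Ω] [Nonempty Ω] [Finite κ] {N : Subgroup G} (hE : Env G Ω N)
    (e : N ≃* K₀) {x : κ → G} {q : κ → ℕ} (hx : PF x q) (hcov : Cov Ω x) {i₀ : κ} (hp : q i₀ = p)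
    (hi₀ : Fl ι p Ψ (act hE e (x i₀)))
    (hT : ∀ j, j ≠ i₀ → act hE e (x j) ∈ InD ι ∨ ∃ Ψ' : MulAut Y, Fl ι (q j) Ψ' (act hE e (x j)) ∧
      ∀ y : Y, ¬ ∀ a ∈ L, y * Ψ' (ι a) * y⁻¹ = ι a) : False := by
  obtain ⟨i, y, hi, hy⟩ := hi₀
  subst hp
  have hxp : (act hE e (x i₀) ^ i) ^ q i₀ = 1 := by
    rw [← map_pow, ← map_pow, ← pow_mul, mul_comm, pow_mul, hx.pow, one_pow, map_one]
  obtain ⟨γ, hγ, hγ'⟩ := exists_std hF hLv.pow hLv.lang hxp hy
  have hact : ∀ g, act hE (e.trans γ) g = γ * act hE e g * γ⁻¹ := act_conj hE e γ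
  have hT' : ∀ j, j ≠ i₀ → act hE (e.trans γ) (x j) ∈ InD ι ∨ ∃ Ψ' : MulAut Y,
      Fl ι (q j) Ψ' (act hE (e.trans γ) (x j)) ∧ ∀ y : Y, ¬ ∀ a ∈ L, y * Ψ' (ι a) * y⁻¹ = ι a := fun j hj => by
    rw [hact]
    rcases hT j hj with h | ⟨Ψ', h, h'⟩
    · exact Or.inl (mul_mem (mul_mem hγ h) (inv_mem hγ))
    · exact Or.inr ⟨Ψ', h.conj hγ, h'⟩
  obtain ⟨e', he'⟩ : ∃ e' : N ≃* K₀, e' = e.trans γ := ⟨_, rfl⟩
  rw [← he'] at hact hT'
  obtain ⟨β, hβ⟩ : ∃ β, β = act hE e' (x i₀) ^ i := ⟨_, rfl⟩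
  have hβ' : ∀ a, ι (β a) = Ψ (ι a) := by
    intro a
    rw [hβ, hact, conj_pow, hγ']
  have hcomm : ∀ j, act hE e' (x j) * β = β * act hE e' (x j) := by
    intro j
    rw [hβ, ← map_pow, ← map_mul, ← map_mul]
    congr 1
    have : Commute (x j) (x i₀) := hx.comm j i₀
    exact this.pow_right i
  obtain ⟨u, hu, hu1, a, b, ha, hb, hux⟩ := hLv.fin β hβ'
  refine out_killY hE e' hx hcov hLv.simple hLv.ncomm hLv.rc ?_ (i₀ := i₀) ?_ hu hu1 ha hb (k := i)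
    (by rw [← hβ]; exact hux)
  · intro j
    have h1 := hLv.pres hF.inj hβ' (hcomm j)
    intro a ha
    have h2 : (⁅L, L⁆).map (act hE e' (x j)).toMonoidHom ≤ ⁅L, L⁆ := by
      rw [map_commutator]
      refine commutator_mono ?_ ?_ <;>
      · rintro _ ⟨b, hb, rfl⟩
        exact h1 b hb
    exact h2 ⟨a, ha, rfl⟩
  · intro j hj hc
    have htr : ∀ a ∈ L, act hE e' (x j) a = a := fun a ha =>
      hLv.triv hF.inj (hLv.pres hF.inj hβ' (hcomm j)) hc ha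
    rcases hT' j hj with ⟨y, hy⟩ | ⟨Ψ', ⟨i', y, -, hy⟩, h'⟩
    · refine act_ne_one hE e' (hx.ne j) ?_
      have h1 : y = 1 := by
        refine hLv.centL y fun a ha => ?_
        have h2 := hy a
        rw [htr a ha] at h2
        exact (eq_mul_inv_iff_mul_eq.1 h2).symm
      subst h1
      refine MulEquiv.ext fun a => hF.inj ?_
      rw [hy, one_mul, inv_one, mul_one]
      rfl
    · refine h' y fun a ha => ?_
      have h2 := hy a
      rw [H28.GenF.apply_pow (htr a ha)] at h2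
      exact h2.symm

end frame

end Cfsg.Agent.H327.RG
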