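import Cfsg.Agent.H327.RG.Kill

/-!
# S3509, outer automorphisms: the end, inside the socle

`act hE e g` : the automorphism of `Y` induced by `g ∈ G` through `e : N ≃* Y`.
-/

set_option autoImplicit false
open Cfsg

namespace Cfsg.Agent.H327.RG

open MulAction Cfsg.Agent.H106.RC
open scoped commutatorElement

section act

variable {G Ω : Type*} [Group G] [MulAction G Ω] {Y : Type*} [Group Y] {N : Subgroup G}

/-- the action of `G` on `Y ≃ N` -/
noncomputable def act (hE : Env G Ω N) (e : N ≃* Y) : G →* MulAut Y :=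
  letI := hE.norm
  (MulAut.congr e).toMonoidHom.comp (MulAut.conjNormal (H := N))

theorem coe_act (hE : Env G Ω N) (e : N ≃* Y) (g : G) (y : Y) :
    (e.symm (act hE e g y) : G) = g * (e.symm y : G) * g⁻¹ := by
  haveI := hE.norm
  have h1 : act hE e g y = e (MulAut.conjNormal (H := N) g (e.symm y)) := rfl
  rw [h1, MulEquiv.symm_apply_apply, MulAut.conjNormal_apply]

theorem act_injective (hE : Env G Ω N) (e : N ≃* Y) : Function.Injective (act hE e) := by
  rw [injective_iff_map_eq_one]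
  intro g hg
  have : g ∈ Subgroup.centralizer (N : Set G) := by
    rw [Subgroup.mem_centralizer_iff]
    intro n hn
    have h1 := coe_act hE e g (e ⟨n, hn⟩)
    rw [hg, MulAut.one_apply, MulEquiv.symm_apply_apply] at h1
    have h2 : n = g * n * g⁻¹ := h1
    calc n * g = (g * n * g⁻¹) * g := by rw [← h2]
      _ = g * n := by group
  rw [hE.cent] at this
  exact Subgroup.mem_bot.1 this

theorem act_ne_one (hE : Env G Ω N) (e : N ≃* Y) {g : G} (hg : g ≠ 1) : act hE e g ≠ 1 := fun h =>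
  hg (act_injective hE e (by rw [h, map_one]))

/-- change of the identification -/
theorem act_trans (hE : Env G Ω N) (e : N ≃* Y) {Y' : Type*} [Group Y'] (f : Y ≃* Y') (g : G) (y : Y') :
    act hE (e.trans f) g y = f (act hE e g (f.symm y)) := rfl

/-- an automorphism `γ` of `Y` as change of the identification -/
theorem act_conj (hE : Env G Ω N) (e : N ≃* Y) (γ : MulAut Y) (g : G) :
    act hE (e.trans γ) g = γ * act hE e g * γ⁻¹ := by
  ext y
  rfl

/-- the subgroup of `G` corresponding to `L ≤ Y` -/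
def lift (e : N ≃* Y) (L : Subgroup Y) : Subgroup G := (L.map e.symm.toMonoidHom).map N.subtype

theorem mem_lift {e : N ≃* Y} {L : Subgroup Y} {g : G} : g ∈ lift e L ↔ ∃ a ∈ L, (e.symm a : G) = g := by
  constructor
  · rintro ⟨_, ⟨a, ha, rfl⟩, rfl⟩
    exact ⟨a, ha, rfl⟩
  · rintro ⟨a, ha, rfl⟩
    exact ⟨e.symm a, ⟨a, ha, rfl⟩, rfl⟩

/-- `lift e L ≃* L` -/
noncomputable def liftEquiv (e : N ≃* Y) (L : Subgroup Y) : lift e L ≃* L :=
  ((Subgroup.equivMapOfInjective _ N.subtype (Subgroup.subtype_injective N)).symm.trans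
    (L.equivMapOfInjective e.symm.toMonoidHom e.symm.injective).symm)

theorem lift_le (e : N ≃* Y) (L : Subgroup Y) : lift e L ≤ N := by
  rintro g ⟨n, -, rfl⟩
  exact n.2

theorem perfect_of_simple {K : Type*} [Group K] {M : Subgroup K} (hs : IsSimpleGroup M) (hn : ¬ IsMulCommutative M) :
    ⁅M, M⁆ = M := by
  have h1 : commutator M = ⊤ := by
    rcases hs.eq_bot_or_eq_top_of_normal (commutator M) inferInstance with h | h
    · exfalso
      apply hn
      refine ⟨⟨fun a b => ?_⟩⟩
      have h2 : ⁅a, b⁆ ∈ commutator M := Subgroup.commutator_mem_commutator (Subgroup.mem_top a) (Subgroup.mem_top b)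
      rw [h, Subgroup.mem_bot, commutatorElement_eq_one_iff_mul_comm] at h2
      exact h2
    · exact h
  have h2 : (commutator M).map M.subtype = ⁅M, M⁆ := by
    rw [commutator_def, Subgroup.map_commutator, ← MonoidHom.range_eq_map, Subgroup.range_subtype]
  rw [← h2, h1, ← MonoidHom.range_eq_map, Subgroup.range_subtype]

/-- **The end, inside `Y`.** -/
theorem out_killY [Nonempty Ω] {ι : Type*} [Finite ι] (hE : Env G Ω N) (e : N ≃* Y) {x : ι → G} {r : ι → ℕ}
    (hx : PF x r) (hcov : Cov Ω x) {L : Subgroup Y} (hLs : IsSimpleGroup L) (hLn : ¬ IsMulCommutative L) (hRC : RC L)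
    (hL : ∀ i, ∀ a ∈ L, act hE e (x i) a ∈ L) {i₀ : ι}
    (hcen : ∀ j, j ≠ i₀ → ¬ ∀ a ∈ L, act hE e (x j) a = a)
    {u a b : Y} (hu : u ∈ L) (hu1 : u ≠ 1) (ha : a * u = u * a) (hb : b * u = u * b) {k : ℕ}
    (hux : ⁅(act hE e (x i₀) ^ k) a * a⁻¹, b⁆ = u) : False := by
  have hLp : ∀ i, ∀ n : ℕ, ∀ a ∈ L, act hE e (x i ^ n) a ∈ L := by
    intro i n
    induction n with
    | zero => intro a ha; rw [pow_zero, map_one]; exact ha
    | succ n ih => intro a ha; rw [pow_succ', map_mul, MulAut.mul_apply]; exact hL i _ (ih a ha)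
  have hconj : ∀ (g : G) (y : Y), g * (e.symm y : G) * g⁻¹ = (e.symm (act hE e g y) : G) := fun g y =>
    (coe_act hE e g y).symm
  have hMs : IsSimpleGroup (lift e L) := isSimple_cgr0 (liftEquiv e L).symm hLs
  have hMn : ¬ IsMulCommutative (lift e L) := fun hc => hLn ⟨⟨fun a b => by
    apply (liftEquiv e L).symm.injective
    rw [map_mul, map_mul]
    exact hc.is_comm.comm _ _⟩⟩
  refine out_kill hE hLs hLn hx hcov (perfect_of_simple hMs hMn) (liftEquiv e L).toMonoidHom
    (liftEquiv e L).surjective ?_ hRC ?_ (i₀ := i₀) ?_ (u := (e.symm u : G)) (mem_lift.2 ⟨u, hu, rfl⟩) ?_ ?_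
  · intro m hm
    have h1 : m = 1 := (liftEquiv e L).injective (by rw [map_one]; exact hm)
    rw [h1]
    exact Subgroup.one_mem _
  · intro i
    rw [Subgroup.mem_normalizer_iff]
    intro g
    constructor
    · intro hg
      obtain ⟨a, ha, rfl⟩ := mem_lift.1 hg
      rw [hconj]
      exact mem_lift.2 ⟨_, hL i a ha, rfl⟩
    · intro hg
      obtain ⟨a, ha, h1⟩ := mem_lift.1 hg
      have h2 : (x i)⁻¹ = x i ^ (r i - 1) := by
        rw [inv_eq_iff_mul_eq_one, ← pow_succ', Nat.sub_add_cancel (hx.prime i).one_lt.le, hx.pow]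
      have h3 : g = (x i) ^ (r i - 1) * (e.symm a : G) * ((x i) ^ (r i - 1))⁻¹ := by
        rw [← h2, h1]; group
      rw [h3, hconj]
      exact mem_lift.2 ⟨_, hLp i _ a ha, rfl⟩
  · intro j hj hall
    refine hcen j hj fun a ha => ?_
    have h1 := hall (e.symm a : G) (mem_lift.2 ⟨a, ha, rfl⟩)
    have h2 : x j * (e.symm a : G) * (x j)⁻¹ = (e.symm a : G) := by rw [h1, mul_inv_cancel_right]
    rw [hconj] at h2
    exact e.symm.injective (Subtype.ext h2)
  · intro h
    apply hu1
    have h1 : e.symm u = 1 := Subtype.ext h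
    rw [← e.apply_symm_apply u, h1, map_one]
  · have h1 : ∀ a b : Y, a * b = b * a → (e.symm a : G) * (e.symm b : G) = (e.symm b : G) * (e.symm a : G) := by
      intro a b hab
      rw [← Subgroup.coe_mul, ← map_mul, hab, map_mul, Subgroup.coe_mul]
    have h2 : (e.symm ((act hE e (x i₀) ^ k) a * a⁻¹) : G) = ⁅x i₀ ^ k, (e.symm a : G)⁆ := by
      rw [← map_pow, map_mul, Subgroup.coe_mul, coe_act, map_inv, Subgroup.coe_inv, commutatorElement_def]
    have h3 : (e.symm u : G) = ⁅⁅x i₀ ^ k, (e.symm a : G)⁆, (e.symm b : G)⁆ := by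
      rw [← h2, ← hux, commutatorElement_def, commutatorElement_def]
      simp only [map_mul, map_inv, Subgroup.coe_mul, Subgroup.coe_inv]
    have h4 : ⁅⁅x i₀ ^ k, (e.symm a : G)⁆, (e.symm b : G)⁆ ∈ ncl (e.symm u : G) (x i₀) :=
      comm_mem (h1 _ _ hb) (comm_mem (h1 _ _ ha) (Subgroup.pow_mem _ (self_mem _ _) k))
    rwa [← h3] at h4

end act

end Cfsg.Agent.H327.RG
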