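import Cfsg.Agent.BpExc.LangFr

/-!
# Lang's theorem for groups generated by words in the root elements

* `lang_gen` : Lang's theorem (entrywise Frobenius) for `Gam X k`;
* `lang_words` : for the group generated by the products `x_{r₁}(t) ⋯ x_{r_s}(t)`, `[r₁, …, r_s] ∈ L`.
-/

set_option autoImplicit false

namespace Cfsg.Agent.H327.RG

open Cfsg.Agent.LangThm Cfsg.Lie Cfsg.Agent.ChevalleyStructure.Elts

universe u

section gen

variable {k : Type u} [Field k] [IsAlgClosed k] {N : Type} [Fintype N] [DecidableEq N] {ι : Type*}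
  {X : ι → GL N (Polynomial k)}

/-- **Lang's theorem.** -/
theorem lang_gen (p e : ℕ) [Fact p.Prime] [CharP k p] (he : 0 < e) (hX0 : ∀ i, ev (0 : k) (X i) = 1)
    (hfr : ∀ i (a : k), frob p e (ev a (X i)) = ev (a ^ p ^ e) (X i)) {m : GL N k} (hm : m ∈ Gam X k) :
    ∃ y ∈ Gam X k, m = y⁻¹ * frob p e y := by
  have hmem : ∀ g ∈ Gam X k, frob p e g ∈ Gam X k := by
    intro g hg
    induction hg using Subgroup.closure_induction with
    | mem g hg =>
      obtain ⟨r, t, rfl⟩ := hg
      rw [hfr]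
      exact ev_mem (X := X) (R := k) _ _
    | one => rw [map_one]; exact one_mem _
    | mul g h _ _ hg hh => rw [map_mul]; exact mul_mem hg hh
    | inv g _ hg => rw [map_inv]; exact inv_mem hg
  let F : Monoid.End ↥(Gam X k) :=
    { toFun := fun g => ⟨frob p e g, hmem g g.2⟩
      map_one' := Subtype.ext (map_one _)
      map_mul' := fun g h => Subtype.ext (map_mul _ _ _) }
  have hF : ∀ (r : ι) (a : k), (F ⟨ev a (X r), ev_mem r a⟩ : GL N k) =
      ev a (ev (Polynomial.X ^ p ^ e : Polynomial k) (X r) : GL N (Polynomial k)) := by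
    intro r a
    show frob p e (ev a (X r)) = _
    rw [hfr]
    have h1 := mp_ev (Polynomial.aeval a : Polynomial k →ₐ[k] k) (Polynomial.X ^ p ^ e : Polynomial k) (X r)
    rw [map_pow, Polynomial.aeval_X] at h1
    exact h1.symm
  obtain ⟨z, hz⟩ := lang (X := X) p e 1 he hX0 F
    (Y := fun r => ev (Polynomial.X ^ p ^ e : Polynomial k) (X r)) (fun i => ev_mem _ _) hF 1
      (fun g => by rw [pow_one, one_mul, inv_one, mul_one]; rfl) ⟨m, hm⟩
  exact ⟨z, z.2, congrArg Subtype.val hz⟩

end gen

section words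

variable {k : Type u} [Field k] {D : ChevalleyDatum} (hD : InList D)

/-- the word over `k[T]` -/
noncomputable def wP (w : List ℕ) : GL D.Idx (Polynomial k) := (w.map fun r => xP hD r (Polynomial.X : Polynomial k)).prod

/-- the word over `k` -/
noncomputable def wx (w : List ℕ) (t : k) : GL D.Idx k := (w.map fun r => xG hD r t).prod

theorem ev_wP (w : List ℕ) (a : k) : ev a (wP (k := k) hD w) = wx hD w a := by
  unfold wP wx ev
  rw [map_list_prod, List.map_map]
  congr 1
  apply List.map_congr_left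
  intro r _
  show ev a (xP hD r (Polynomial.X : Polynomial k)) = _
  rw [ev_xP, Polynomial.eval_X]

theorem wx_zero (w : List ℕ) : wx hD w (0 : k) = 1 := by
  unfold wx
  apply List.prod_eq_one
  intro x hx
  obtain ⟨r, -, rfl⟩ := List.mem_map.1 hx
  exact xG_zero hD r

theorem frob_wx (p e : ℕ) [Fact p.Prime] [CharP k p] (w : List ℕ) (t : k) :
    frob p e (wx hD w t) = wx hD w (t ^ p ^ e) := by
  unfold wx
  rw [map_list_prod, List.map_map]
  congr 1
  apply List.map_congr_left
  intro r _
  exact frob_xG hD p e r t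

/-- **Lang's theorem for the group generated by words.** -/
theorem lang_words [IsAlgClosed k] (p e : ℕ) [Fact p.Prime] [CharP k p] (he : 0 < e) (L : Set (List ℕ))
    {H : Subgroup (GL D.Idx k)} (h1 : ∀ w ∈ L, ∀ t : k, wx hD w t ∈ H)
    (h2 : ∀ H' : Subgroup (GL D.Idx k), (∀ w ∈ L, ∀ t : k, wx hD w t ∈ H') → H ≤ H') {m : GL D.Idx k} (hm : m ∈ H) :
    ∃ y ∈ H, m = y⁻¹ * frob p e y := by
  have e1 : H = Gam (fun w : L => wP (k := k) hD (w : List ℕ)) k := by
    apply le_antisymm
    · refine h2 _ fun w hw t => ?_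
      have h3 := ev_mem (X := fun w : L => wP (k := k) hD (w : List ℕ)) (R := k) ⟨w, hw⟩ t
      rwa [ev_wP] at h3
    · unfold Gam
      rw [Subgroup.closure_le]
      rintro g ⟨w, t, rfl⟩
      rw [ev_wP]
      exact h1 _ w.2 t
  rw [e1] at hm ⊢
  refine lang_gen p e he (fun i => ?_) (fun i a => ?_) hm
  · rw [ev_wP, wx_zero]
  · rw [ev_wP, ev_wP, frob_wx]

end words

end Cfsg.Agent.H327.RG
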