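import Cfsg.Agent.H327.RG.FldAbs

/-!
# S3509, outer automorphisms in standard form: abstract lemmas

* `Lw ι Ψ L` : `L ≤ K₀` the (derived) group of fixed points of `Ψ`, simple with `RC`, trivial centralizer;
* `std_kill` : a cover with one member inducing `Ψ` (up to `InD`, a power), all other members inner-diagonal or not
  centralising `L`, is impossible;
* `none_killY` : the M-rule when no member centralises `L`;
* `tw_kill` : a cover with one member inducing `conj t * Ψ`, `Ψ t = t ≠ 1`, the centralizer of `conj t * Ψ` contained in the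
  centralizer of `Ψ`, all other members inner-diagonal, is impossible.
-/

set_option autoImplicit false
set_option linter.unusedSectionVars false

namespace Cfsg.Agent.H327.RG

open MulAction Subgroup Cfsg.Agent.H106.RC
open Cfsg.Agent.H28.GenF (InD)
open scoped commutatorElement

section none

variable {G Ω : Type*} [Group G] [MulAction G Ω] {Y : Type*} [Group Y] {N : Subgroup G}

/-- **The M-rule when no member centralises `L`.** -/
theorem none_killY [Nonempty Ω] {ι : Type*} [Finite ι] (hE : Env G Ω N) (e : N ≃* Y) {x : ι → G} {r : ι → ℕ}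
    (hx : PF x r) (hcov : Cov Ω x) {L : Subgroup Y} (hLs : IsSimpleGroup L) (hLn : ¬ IsMulCommutative L) (hRC : RC L)
    (hL : ∀ i, ∀ a ∈ L, act hE e (x i) a ∈ L)
    (hcen : ∀ j, ¬ ∀ a ∈ L, act hE e (x j) a = a) : False := by
  have hLp : ∀ i, ∀ n : ℕ, ∀ a ∈ L, act hE e (x i ^ n) a ∈ L := by
    intro i n
    induction n with
    | zero => intro a ha; rw [pow_zero, map_one]; exact ha
    | succ n ih => intro a ha; rw [pow_succ', map_mul, MulAut.mul_apply]; exact hL i _ (ih a ha)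
  have hconj : ∀ (g : G) (y : Y), g * (e.symm y : G) * g⁻¹ = (e.symm (act hE e g y) : G) := fun g y =>
    (coe_act hE e g y).symm
  have hMs : IsSimpleGroup (lift e L) := isSimple_cgr0 (liftEquiv e L).symm hLs
  have hMn : ¬ IsMulCommutative (lift e L) := fun hc => hLn ⟨⟨fun a b => by
    apply (liftEquiv e L).symm.injective
    rw [map_mul, map_mul]
    exact hc.is_comm.comm _ _⟩⟩
  have hnorm : ∀ i, x i ∈ Subgroup.normalizer (lift e L : Set G) := by
    intro i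
    rw [Subgroup.mem_normalizer_iff]
    intro g
    constructor
    · intro hg
      obtain ⟨a, ha, rfl⟩ := mem_lift.1 hg
      rw [hconj]
      exact mem_lift.2 ⟨_, hL i a ha, rfl⟩
    · intro hg
      obtain ⟨a, ha, h1⟩ := mem_lift.1 hg
      have h2 : (x i)⁻¹ = x i ^ (r i - 1) := by
        rw [inv_eq_iff_mul_eq_one, ← pow_succ', Nat.sub_add_cancel (hx.prime i).one_lt.le, hx.pow]
      have h3 : g = (x i) ^ (r i - 1) * (e.symm a : G) * ((x i) ^ (r i - 1))⁻¹ := by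
        rw [← h2, h1]; group
      rw [h3, hconj]
      exact mem_lift.2 ⟨_, hLp i _ a ha, rfl⟩
  have hall : ∀ u ∈ lift e L, u = 1 := by
    intro u hu
    refine hE.single fun ω => ?_
    rcases mrule_RC hLs hLn x r hx.prime hx.inj hx.pow hx.comm (lift e L) (perfect_of_simple hMs hMn)
      (liftEquiv e L).toMonoidHom (liftEquiv e L).surjective (by
        intro m hm
        have h1 : m = 1 := (liftEquiv e L).injective (by rw [map_one]; exact hm)
        rw [h1]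
        exact Subgroup.one_mem _) hnorm hRC ω (fun m _ => by
        obtain ⟨i, hi⟩ := hcov (m • ω)
        exact ⟨i, hi⟩) with h | ⟨j, hj, -⟩
    · exact h hu
    · exfalso
      refine hcen j fun a ha => ?_
      have h1 := hj (e.symm a : G) (mem_lift.2 ⟨a, ha, rfl⟩)
      have h2 : x j * (e.symm a : G) * (x j)⁻¹ = (e.symm a : G) := by rw [h1, mul_inv_cancel_right]
      rw [hconj] at h2
      exact e.symm.injective (Subtype.ext h2)
  refine hMn ⟨⟨fun a b => ?_⟩⟩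
  apply Subtype.ext
  rw [hall _ (a * b).2, hall _ (b * a).2]

end none

section frame

variable {Y K₀ : Type*} [Group Y] [Group K₀]

/-- the level -/
structure Lw (ι : K₀ →* Y) (Ψ : MulAut Y) (L : Subgroup K₀) : Prop where
  fixL : ∀ a ∈ L, Ψ (ι a) = ι a
  charL : ∀ α : MulAut K₀, (∀ a, Ψ (ι a) = ι a → Ψ (ι (α a)) = ι (α a)) → ∀ a ∈ L, α a ∈ L
  centL : ∀ y, (∀ a ∈ L, y * ι a = ι a * y) → y = 1
  simple : IsSimpleGroup ↥⁅L, L⁆
  ncomm : ¬ IsMulCommutative ↥⁅L, L⁆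
  rc : RC ↥⁅L, L⁆

variable {ι : K₀ →* Y} {Ψ : MulAut Y} {L : Subgroup K₀}

/-- the centralizer of the derived group in `L` -/
theorem Lw.cent_der (h : Lw ι Ψ L) (hι : Function.Injective ι) {a : K₀} (ha : a ∈ L)
    (hc : ∀ b ∈ ⁅L, L⁆, a * b = b * a) : a = 1 := by
  have hcen : ∀ z ∈ ⁅L, L⁆, (∀ b ∈ ⁅L, L⁆, z * b = b * z) → z = 1 := by
    intro z hz hzc
    have h1 : (⟨z, hz⟩ : ↥⁅L, L⁆) ∈ center ↥⁅L, L⁆ := by
      rw [mem_center_iff]
      intro b
      exact Subtype.ext (hzc b b.2).symm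
    rcases h.simple.eq_bot_or_eq_top_of_normal (center ↥⁅L, L⁆) inferInstance with h' | h'
    · rw [h', mem_bot] at h1
      exact congrArg Subtype.val h1
    · exact (h.ncomm ⟨⟨fun b c => (mem_center_iff.1 (h' ▸ mem_top c) b)⟩⟩).elim
  have h1 : ∀ b ∈ L, a * b = b * a := by
    intro b hb
    have h2 : ⁅a, b⁆ = 1 := by
      refine hcen _ (commutator_mem_commutator ha hb) fun c hc' => ?_
      have h3 := hc _ (Lv.conj_der (inv_mem hb) hc')
      rw [inv_inv] at h3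
      have h4 := hc c hc'
      rw [commutatorElement_def]
      calc a * b * a⁻¹ * b⁻¹ * c = a * b * a⁻¹ * (b⁻¹ * c * b) * b⁻¹ := by group
        _ = a * b * (a⁻¹ * (a * (b⁻¹ * c * b) * a⁻¹)) * b⁻¹ := by
            rw [h3]; group
        _ = a * c * b * a⁻¹ * b⁻¹ := by group
        _ = c * (a * b * a⁻¹ * b⁻¹) := by rw [h4]; group
    rwa [commutatorElement_eq_one_iff_mul_comm] at h2
  have h2 : ι a = 1 := h.centL _ fun b hb => by rw [← map_mul, h1 b hb, map_mul]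
  exact hι (by rw [h2, map_one])

/-- an automorphism preserving `L` and trivial on the derived group is trivial on `L` -/
theorem Lw.triv (h : Lw ι Ψ L) (hι : Function.Injective ι) {α : MulAut K₀} (hα : ∀ a ∈ L, α a ∈ L)
    (hc : ∀ a ∈ ⁅L, L⁆, α a = a) {a : K₀} (ha : a ∈ L) : α a = a := by
  have h1 : a⁻¹ * α a = 1 := by
    refine h.cent_der hι (mul_mem (inv_mem ha) (hα a ha)) fun b hb => ?_
    have h3 := hc _ (Lv.conj_der ha hb)
    rw [map_mul, map_mul, map_inv, hc b hb] at h3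
    calc a⁻¹ * α a * b = a⁻¹ * (α a * b * (α a)⁻¹) * α a := by group
      _ = a⁻¹ * (a * b * a⁻¹) * α a := by rw [h3]
      _ = b * (a⁻¹ * α a) := by group
  exact (inv_mul_eq_one.1 h1).symm

theorem der_pres {α : MulAut K₀} (h1 : ∀ a ∈ L, α a ∈ L) : ∀ a ∈ ⁅L, L⁆, α a ∈ ⁅L, L⁆ := by
  intro a ha
  have h2 : (⁅L, L⁆).map α.toMonoidHom ≤ ⁅L, L⁆ := by
    rw [map_commutator]
    refine commutator_mono ?_ ?_ <;>
    · rintro _ ⟨b, hb, rfl⟩
      exact h1 b hb
  exact h2 ⟨a, ha, rfl⟩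

/-- **A cover with one member in standard form.** -/
theorem std_kill (hι : Function.Injective ι) (hL : Lw ι Ψ L)
    (fin : ∀ β : MulAut K₀, (∀ a, ι (β a) = Ψ (ι a)) → ∃ u ∈ ⁅L, L⁆, u ≠ 1 ∧ ∃ a b : K₀, a * u = u * a ∧ b * u = u * b ∧
      ⁅β a * a⁻¹, b⁆ = u)
    {G Ω κ : Type*} [Group G] [MulAction G Ω] [Nonempty Ω] [Finite κ] {N : Subgroup G} (hE : Env G Ω N)
    (e : N ≃* K₀) {x : κ → G} {q : κ → ℕ} (hx : PF x q) (hcov : Cov Ω x) {i₀ : κ}
    (hstd : ∃ γ : MulAut K₀, γ ∈ InD ι ∧ ∃ i : ℕ, ∀ a, ι (((γ * act hE e (x i₀) * γ⁻¹) ^ i) a) = Ψ (ι a))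
    (hT : ∀ j, j ≠ i₀ → act hE e (x j) ∈ InD ι ∨ ∃ Ψ' : MulAut Y, Fl ι (q j) Ψ' (act hE e (x j)) ∧
      ∀ y : Y, ¬ ∀ a ∈ L, y * Ψ' (ι a) * y⁻¹ = ι a) : False := by
  obtain ⟨γ, hγ, i, hγ'⟩ := hstd
  have hact : ∀ g, act hE (e.trans γ) g = γ * act hE e g * γ⁻¹ := act_conj hE e γ
  have hT' : ∀ j, j ≠ i₀ → act hE (e.trans γ) (x j) ∈ InD ι ∨ ∃ Ψ' : MulAut Y,
      Fl ι (q j) Ψ' (act hE (e.trans γ) (x j)) ∧ ∀ y : Y, ¬ ∀ a ∈ L, y * Ψ' (ι a) * y⁻¹ = ι a := fun j hj => by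
    rw [hact]
    rcases hT j hj with h | ⟨Ψ', h, h'⟩
    · exact Or.inl (mul_mem (mul_mem hγ h) (inv_mem hγ))
    · exact Or.inr ⟨Ψ', h.conj hγ, h'⟩
  obtain ⟨e', he'⟩ : ∃ e' : N ≃* K₀, e' = e.trans γ := ⟨_, rfl⟩
  rw [← he'] at hact hT'
  obtain ⟨β, hβ⟩ : ∃ β, β = act hE e' (x i₀) ^ i := ⟨_, rfl⟩
  have hβ' : ∀ a, ι (β a) = Ψ (ι a) := by
    intro a
    rw [hβ, hact, hγ']
  have hcomm : ∀ j, act hE e' (x j) * β = β * act hE e' (x j) := by
    intro j
    rw [hβ, ← map_pow, ← map_mul, ← map_mul]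
    congr 1
    have : Commute (x j) (x i₀) := hx.comm j i₀
    exact this.pow_right i
  have hpres : ∀ j, ∀ a ∈ L, act hE e' (x j) a ∈ L := by
    intro j
    refine hL.charL _ fun a ha => ?_
    have h1 : β a = a := hι (by rw [hβ', ha])
    rw [← hβ', ← MulAut.mul_apply, ← hcomm, MulAut.mul_apply, h1]
  obtain ⟨u, hu, hu1, a, b, ha, hb, hux⟩ := fin β hβ'
  refine out_killY hE e' hx hcov hL.simple hL.ncomm hL.rc (fun j => der_pres (hpres j)) (i₀ := i₀) ?_ hu hu1 ha hb (k := i)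
    (by rw [← hβ]; exact hux)
  intro j hj hc
  have htr : ∀ a ∈ L, act hE e' (x j) a = a := fun a ha => hL.triv hι (hpres j) hc ha
  rcases hT' j hj with ⟨y, hy⟩ | ⟨Ψ', ⟨i', y, -, hy⟩, h'⟩
  · refine act_ne_one hE e' (hx.ne j) ?_
    have h1 : y = 1 := by
      refine hL.centL y fun a ha => ?_
      have h2 := hy a
      rw [htr a ha] at h2
      exact (eq_mul_inv_iff_mul_eq.1 h2).symm
    subst h1
    refine MulEquiv.ext fun a => hι ?_
    rw [hy, one_mul, inv_one, mul_one]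
    rfl
  · refine h' y fun a ha => ?_
    have h2 := hy a
    rw [H28.GenF.apply_pow (htr a ha)] at h2
    exact h2.symm

/-- **A cover with one member `conj t * Ψ`, `t ≠ 1`.** -/
theorem tw_kill (hι : Function.Injective ι) (hcen : ∀ z, (∀ a, z * ι a = ι a * z) → z = 1) (hL : Lw ι Ψ L)
    {t : Y} (ht : Ψ t = t) (ht1 : t ≠ 1) (hC : ∀ w, w * t = t * Ψ w → Ψ w = w)
    {G Ω κ : Type*} [Group G] [MulAction G Ω] [Nonempty Ω] [Finite κ] {N : Subgroup G} (hE : Env G Ω N)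
    (e : N ≃* K₀) {x : κ → G} {q : κ → ℕ} (hx : PF x q) (hcov : Cov Ω x) {i₀ : κ}
    (hstd : ∃ γ : MulAut K₀, γ ∈ InD ι ∧ ∀ a, ι ((γ * act hE e (x i₀) * γ⁻¹) a) = t * Ψ (ι a) * t⁻¹)
    (hT : ∀ j, j ≠ i₀ → act hE e (x j) ∈ InD ι) : False := by
  obtain ⟨γ, hγ, hγ'⟩ := hstd
  have hact : ∀ g, act hE (e.trans γ) g = γ * act hE e g * γ⁻¹ := act_conj hE e γ
  have hT' : ∀ j, j ≠ i₀ → act hE (e.trans γ) (x j) ∈ InD ι := fun j hj => by
    rw [hact]
    exact mul_mem (mul_mem hγ (hT j hj)) (inv_mem hγ)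
  obtain ⟨e', he'⟩ : ∃ e' : N ≃* K₀, e' = e.trans γ := ⟨_, rfl⟩
  rw [← he'] at hact hT'
  have hβ : ∀ a, ι (act hE e' (x i₀) a) = t * Ψ (ι a) * t⁻¹ := by
    intro a
    rw [hact, hγ']
  have hpres : ∀ j, ∀ a ∈ L, act hE e' (x j) a ∈ L := by
    intro j
    refine hL.charL _ fun a ha => ?_
    by_cases hj : j = i₀
    · subst hj
      rw [hβ, ha, map_mul, map_mul, map_inv, ht, ha]
    · obtain ⟨w, hw⟩ := hT' j hj
      have hcomm : act hE e' (x j) * act hE e' (x i₀) = act hE e' (x i₀) * act hE e' (x j) := by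
        rw [← map_mul, ← map_mul]
        congr 1
        exact hx.comm j i₀
      have hΨw : w * t = t * Ψ w := by
        obtain ⟨c, hc⟩ : ∃ c, c = t⁻¹ * w⁻¹ * t := ⟨_, rfl⟩
        have h1 : (Ψ⁻¹ c * w) = 1 := by
          refine hcen _ fun a => ?_
          have h2 := congrArg ι (DFunLike.congr_fun hcomm a)
          rw [MulAut.mul_apply, MulAut.mul_apply, hw, hβ, hβ, hw, map_mul, map_mul, map_inv] at h2
          apply Ψ.injective
          rw [map_mul, map_mul, map_mul, map_mul, MulAut.apply_inv_self, hc]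
          calc t⁻¹ * w⁻¹ * t * Ψ w * Ψ (ι a) = t⁻¹ * w⁻¹ * (t * (Ψ w * Ψ (ι a) * (Ψ w)⁻¹) * t⁻¹) * t * Ψ w := by group
            _ = t⁻¹ * w⁻¹ * (w * (t * Ψ (ι a) * t⁻¹) * w⁻¹) * t * Ψ w := by rw [← h2]
            _ = Ψ (ι a) * (t⁻¹ * w⁻¹ * t * Ψ w) := by group
        have h4 := congrArg Ψ h1
        rw [map_mul, MulAut.apply_inv_self, map_one, hc] at h4
        calc w * t = w * t * (t⁻¹ * w⁻¹ * t * Ψ w) := by rw [h4, mul_one]
          _ = t * Ψ w := by group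
      rw [hw, map_mul, map_mul, map_inv, hC w hΨw, ha]
  refine none_killY hE e' hx hcov hL.simple hL.ncomm hL.rc (fun j => der_pres (hpres j)) ?_
  intro j hc
  have htr : ∀ a ∈ L, act hE e' (x j) a = a := fun a ha => hL.triv hι (hpres j) hc ha
  by_cases hj : j = i₀
  · subst hj
    refine ht1 (hL.centL t fun a ha => ?_)
    have h1 := hβ a
    rw [htr a ha, hL.fixL a ha] at h1
    exact (eq_mul_inv_iff_mul_eq.1 h1).symm
  · obtain ⟨y, hy⟩ := hT' j hj
    refine act_ne_one hE e' (hx.ne j) ?_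
    have h1 : y = 1 := by
      refine hL.centL y fun a ha => ?_
      have h2 := hy a
      rw [htr a ha] at h2
      exact (eq_mul_inv_iff_mul_eq.1 h2).symm
    subst h1
    refine MulEquiv.ext fun a => hι ?_
    rw [hy, one_mul, inv_one, mul_one]
    rfl

end frame

end Cfsg.Agent.H327.RG
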