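import Cfsg.Agent.H327.RG.StdAbs
import Cfsg.Agent.H28.FamFour
import Cfsg.Agent.H720.TwFr
import Cfsg.Agent.H469.Exc.Model

/-!
# S3509, the automorphisms of prime order of `³D₄(q)` inside `D₄(KK r)`

* `fix_range4` : the fixed points of `gr * Frob` are the image of `³D₄(q)`; `fr_te4` : the frame;
* `Ty4`, `ty4` : every automorphism of prime order is inner-diagonal, of field type (order `p ≠ 3`) or of graph type
  (order 3);
* `fixS` : the fixed points in `K₀` of an automorphism of `Y`; `exists_equiv_fixS`;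
* `exists_gf` : finite fields inside `KK r`;
* `fix4_iff`, `cent4` : the fixed points of `gr ^ j * Frob`, `j` prime to 3, and their centralizer.
-/

set_option autoImplicit false
set_option linter.unusedSectionVars false
set_option maxHeartbeats 400000

section Fam

namespace Cfsg.Agent.H327.RG.Four

open Cfsg.Agent.BpExc Cfsg.Agent.BpExc.FamTw Cfsg.Agent.H522.FamTw

open CoxeterSystem Cfsg.Agent.ChevalleyStructure.CoxeterGeom
open Cfsg.Agent.Nodes.Reps Cfsg.Agent.Nodes.BNOf Cfsg.Agent.Nodes.RGDTwGen Cfsg.Agent.Nodes.RGDChev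
open Cfsg.Lie Cfsg.Agent.ChevalleyStructure Cfsg.Agent.ChevalleyStructure.Elts Cfsg.Agent.ChevStructure.FieldMap
open Cfsg.Agent.KFacts.TwDFour.Out
open Cfsg.Agent.Nodes.RGDTwD4 Cfsg.Agent.Nodes.RGDTwNode.D4
open Cfsg.Agent.ChevalleyStructure.GraphSymm (symmD4a)
open Cfsg.Agent.CpAut.RgdFix Cfsg.Agent.CpAut.RgdCoh Cfsg.Agent.CpAut.RgdConj Cfsg.Agent.CpAut.RgdSub
  Cfsg.Agent.CpAut.RgdTwStd Cfsg.Agent.CpAut.RgdTwD4
open Cfsg.Agent.CpAut.RgdUntw (fld fld_coe fld_mul fld_one fld_pow)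
open Cfsg.Agent.BpExc.FamTw.Gr Cfsg.Agent.BpExc.FamField
open Cfsg.Agent.BpExc.TowChev (LocFin)
open Cfsg.Agent.H28.FamFour

universe u v

variable {L : Type u} [Field L] [IsAlgClosed L] {K : Type u} [Field K] [Fintype K] {q : ℕ}
  (hq : IsPrimePow q) (hK : Fintype.card K = q ^ 3) (f : K →+* L)
  (r : ℕ) [Fact r.Prime] [CharP L r] [CharP K r]

include hq hK r in
/-- **The automorphisms of prime order `p ≠ 3` of `³D₄(q)`** (the proof of `fam`, with the explicit automorphism). -/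
theorem famX {Φ : L ≃+* L} (hΦ : ∀ a, Φ a = a ^ q) {p : ℕ} (hpp : p.Prime) (hp3 : p ≠ 3)
    (x : MulAut ↥(twistedD4 K q)) (hxp : x ^ p = 1) :
    (∃ y : ↥(chevD4.group L), ∀ a, em q f (x a) = y * em q f a * y⁻¹) ∨
    ∃ (i : ℕ) (c : ↥(chevD4.group L)) (j m : ℕ),
      i.Coprime p ∧ 0 < m ∧ q = r ^ (m * p) ∧ (j * p) % 3 = 1 ∧
      ∀ a, em q f ((x ^ i) a) =
        (MulAut.conj c * (gr hD4 symmD4a ^ j * fld chevD4 (frb L r m)) : MulAut ↥(chevD4.group L)) (em q f a) := by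
  obtain ⟨φ, hφ⟩ := D4Fixed.exists_frob hq hK
  obtain ⟨cs', -⟩ : ∃ cs : CoxeterSystem CoxeterMatrix.G₂ CoxeterMatrix.G₂.Group, cs = cs :=
    ⟨CoxeterMatrix.G₂.toCoxeterSystem, rfl⟩
  have hroot : ∀ a : K, ∃ b : L, b ^ 2 = f a := fun a => IsAlgClosed.exists_pow_nat_eq (f a) two_pos
  have hΦf : ∀ a, Φ (f a) = f (φ a) := fun a => by rw [hΦ, hφ, map_pow]
  obtain ⟨a, τ, y, S, hy, hxy⟩ := exists_lift hφ hK cs' r f hq.one_lt hroot hΦf x
  have hτp := tau_pow_eq_one hφ hK cs' r S hxp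
  by_cases hτ1 : τ = 1
  · left
    subst hτ1
    exact ⟨y, fun g => by rw [hxy, st_one]⟩
  · right
    have hr : r.Prime := Fact.out
    obtain ⟨i, e, hi, he0, hcard, hfr⟩ := exists_field r hpp hτp hτ1
    -- `q = r ^ a₁`
    obtain ⟨a₁, -, hqa⟩ : ∃ a₁ ≤ e * p, q = r ^ a₁ := by
      refine (Nat.dvd_prime_pow hr).1 ?_
      rw [← hcard, Nat.card_eq_fintype_card, hK]
      exact dvd_pow_self q (by norm_num)
    have h3a : a₁ * 3 = e * p := by
      rw [Nat.card_eq_fintype_card, hK, hqa, ← pow_mul] at hcard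
      exact Nat.pow_right_injective hr.two_le hcard
    have hpa : p ∣ a₁ := by
      have h1 : p ∣ a₁ * 3 := ⟨e, by rw [h3a, mul_comm]⟩
      rcases (Nat.Prime.dvd_mul hpp).1 h1 with h2 | h2
      · exact h2
      · exact absurd ((Nat.prime_dvd_prime_iff_eq hpp Nat.prime_three).1 h2) hp3
    obtain ⟨a₀, rfl⟩ := hpa
    have hea : e = 3 * a₀ := by
      have h1 : p * (3 * a₀) = p * e := by rw [mul_comm p e, ← h3a]; ring
      exact (Nat.eq_of_mul_eq_mul_left hpp.pos h1).symm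
    subst hea
    have ha0 : 0 < a₀ := by
      rcases Nat.eq_zero_or_pos a₀ with h0 | h0
      · rw [h0] at he0
        exact absurd he0 (by norm_num)
      · exact h0
    -- `j p = 1 mod 3`
    obtain ⟨j, t, hjt⟩ : ∃ j t : ℕ, j * p = 3 * t + 1 := by
      have h0 : p % 3 ≠ 0 := fun h => hp3 ((Nat.prime_dvd_prime_iff_eq Nat.prime_three hpp).1
        (Nat.dvd_of_mod_eq_zero h)).symm
      have hdm := Nat.div_add_mod p 3
      have hmod : p % 3 = 1 ∨ p % 3 = 2 := by omega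
      rcases hmod with hm | hm
      · exact ⟨1, p / 3, by omega⟩
      · exact ⟨2, 2 * (p / 3) + 1, by omega⟩
    obtain ⟨s, hs⟩ : ∃ s : ℕ, s = 2 * t + 1 := ⟨_, rfl⟩
    have hs3 : 3 * s = 1 + 2 * (j * p) := by rw [hjt, hs]; ring
    have hsp : s.Coprime p := by
      refine ((Nat.Prime.coprime_iff_not_dvd hpp).2 fun h1 => ?_).symm
      have h2 : p ∣ 1 + 2 * (j * p) := by rw [← hs3]; exact h1.mul_left 3
      have h3 : p ∣ 2 * (j * p) := ⟨2 * j, by ring⟩
      exact hpp.one_lt.ne' (Nat.dvd_one.1 ((Nat.dvd_add_left h3).1 h2))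
    have hperfL : PerfectRing L r := inferInstance
    have hperfK : PerfectRing K r := inferInstance
    obtain ⟨φ₀, hφ₀⟩ : ∃ φ₀ : MulAut ↥(chevD4.group L), φ₀ = gr hD4 symmD4a ^ j * fld chevD4 (frb L r a₀) := ⟨_, rfl⟩
    -- the action of `φ₀`
    have hψ : ∀ b : K, φ (frb K r (2 * (p * a₀)) b) = b := by
      intro b
      rw [hφ, frb_apply, hqa, ← pow_mul, ← pow_add]
      have h1 : 2 * (p * a₀) + p * a₀ = p * a₀ * 3 := by ring
      rw [h1, pow_mul, ← hqa, ← hK]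
      exact FiniteField.pow_card b
    have hgr : ∀ (n : ℕ) (g : ↥(twistedD4 K q)),
        (gr hD4 symmD4a ^ n) (em q f g) = em q f (st q (frb K r (2 * (p * a₀)) ^ n) g) := by
      intro n
      induction n with
      | zero => intro g; rw [pow_zero, pow_zero, st_one]; rfl
      | succ n ih =>
        intro g
        rw [pow_succ, MulAut.mul_apply, gr_em hφ hK f hΦf hψ, ih, pow_succ, st_mul]
    have hτs : frb K r (2 * (p * a₀)) ^ j * frb K r a₀ = τ ^ (i * s) := by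
      apply RingEquiv.ext
      intro b
      rw [pow_mul, pow_apply_of hfr, frb_pow, RingAut.mul_apply, frb_apply, frb_apply, ← pow_mul, ← pow_add]
      congr 2
      have h1 : 3 * a₀ * s = (3 * s) * a₀ := by ring
      rw [h1, hs3]
      ring
    have hact : ∀ g : ↥(twistedD4 K q), φ₀ (em q f g) = em q f (st q (τ ^ (i * s)) g) := by
      intro g
      rw [hφ₀, MulAut.mul_apply, fld_em f (τ := frb K r a₀) (fun b => by rw [frb_apply, frb_apply, map_pow]), hgr,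
        ← st_mul, hτs]
    obtain ⟨a', τ', y', S', hy', hxy'⟩ := exists_lift hφ hK cs' r f hq.one_lt hroot hΦf (x ^ (i * s))
    obtain ⟨b, hb⟩ := dtau_pow' hφ hK S (i * s)
    have hττ : τ' = τ ^ (i * s) := dtau_unique hφ hK cs' r S' hb
    subst hττ
    have hxy'' : ∀ g, em q f ((x ^ (i * s)) g) = y' * φ₀ (em q f g) * y'⁻¹ := fun g => by rw [hxy', hact]
    refine ⟨i * s, y', j, a₀, Nat.Coprime.mul_left hi hsp, ha0, by rw [hqa, mul_comm], by omega, fun g => ?_⟩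
    rw [hxy'', MulAut.mul_apply, MulAut.conj_apply, hφ₀]

include hq hK in
/-- **The automorphisms of order 3 of `³D₄(q)`.** -/
theorem lift3 {n : ℕ} (hn : q = r ^ n) {x : MulAut ↥(twistedD4 K q)} (hxp : x ^ 3 = 1) :
    (∃ y : ↥(chevD4.group L), ∀ a, em q f (x a) = y * em q f a * y⁻¹) ∨
    ∃ (i : ℕ) (y : ↥(chevD4.group L)), i.Coprime 3 ∧
      ∀ g, em q f ((x ^ i) g) = y * fld chevD4 (frb L r n) (em q f g) * y⁻¹ := by
  have hr : r.Prime := Fact.out
  obtain ⟨φ, hφ⟩ := D4Fixed.exists_frob hq hK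
  obtain ⟨cs', -⟩ : ∃ cs : CoxeterSystem CoxeterMatrix.G₂ CoxeterMatrix.G₂.Group, cs = cs :=
    ⟨CoxeterMatrix.G₂.toCoxeterSystem, rfl⟩
  have hroot : ∀ a : K, ∃ b : L, b ^ 2 = f a := fun a => IsAlgClosed.exists_pow_nat_eq (f a) two_pos
  have hΦf : ∀ a, frb L r n (f a) = f (φ a) := fun a => by rw [frb_apply, hφ, map_pow, hn]
  obtain ⟨a, τ, y, S, hy, hxy⟩ := exists_lift hφ hK cs' r f hq.one_lt hroot hΦf x
  have hτp := tau_pow_eq_one hφ hK cs' r S hxp
  by_cases hτ1 : τ = 1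
  · left
    subst hτ1
    exact ⟨y, fun g => by rw [hxy, st_one]⟩
  right
  obtain ⟨i, e, hi, he0, hcard, hfr⟩ := exists_field r Nat.prime_three hτp hτ1
  have hne : n = e := by
    rw [Nat.card_eq_fintype_card, hK, hn, ← pow_mul] at hcard
    exact Nat.eq_of_mul_eq_mul_right (by norm_num) (Nat.pow_right_injective hr.two_le hcard)
  subst hne
  obtain ⟨a', τ', y', S', hy', hxy'⟩ := exists_lift hφ hK cs' r f hq.one_lt hroot hΦf (x ^ i)
  obtain ⟨b, hb⟩ := dtau_pow' hφ hK S i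
  have hττ : τ' = τ ^ i := dtau_unique hφ hK cs' r S' hb
  subst hττ
  refine ⟨i, y', hi, fun g => ?_⟩
  have h1 : fld chevD4 (frb L r n) (em q f g) = em q f (st q (τ ^ i) g) :=
    fld_em f (τ := τ ^ i) (fun b => by rw [frb_apply, hfr, map_pow]) g
  rw [hxy', h1]

end Cfsg.Agent.H327.RG.Four

end Fam
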